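import Mathlib
import Cfsg.Agent.Lib.Helper14.Class2
import Cfsg.Agent.Lib.Helper14.NormalChain
import Cfsg.Agent.Lib.Helper14.PGroupRel
import Cfsg.Agent.S1452

set_option autoImplicit false

namespace Cfsg.Agent.Lib.Helper14

open scoped commutatorElement

theorem even_choose_two_of_four_dvd {n : ℕ} (h : 4 ∣ n) : Even (n.choose 2) := by
  obtain ⟨t, rfl⟩ := h
  rw [Nat.choose_two_right]
  have : 4 * t * (4 * t - 1) / 2 = 2 * (t * (4 * t - 1)) := by
    apply Nat.div_eq_of_eq_mul_left (by norm_num); ring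
  rw [this]; exact even_two_mul _

theorem sq_zpow_eq_one {P : Type*} [Group P] {z : P} (hz2 : z ^ 2 = 1) (k : ℤ) : (z ^ k) ^ 2 = 1 := by
  rw [← zpow_natCast, ← zpow_mul, mul_comm, zpow_mul, zpow_natCast, hz2, one_zpow]

theorem zpow_even_eq_one {P : Type*} [Group P] {z : P} (hz2 : z ^ 2 = 1) {k : ℤ} (hk : Even k) :
    z ^ k = 1 := by
  obtain ⟨r, rfl⟩ := hk
  rw [← two_mul, zpow_mul, zpow_ofNat, hz2, one_zpow]

theorem zpow_odd_eq_self {P : Type*} [Group P] {z : P} (hz2 : z ^ 2 = 1) {k : ℤ} (hk : Odd k) :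
    z ^ k = z := by
  obtain ⟨r, rfl⟩ := hk
  rw [zpow_add, zpow_mul, zpow_ofNat, hz2, one_zpow, one_mul, zpow_one]

/-- A normal "modular" overgroup of a normal cyclic subgroup yields a noncyclic abelian normal subgroup. -/
theorem modular_kill {P : Type*} [Group P] [Finite P] (m : ℕ) (hm : 3 ≤ m) (a x : P)
    (ha : orderOf a = 2 ^ m) (hAn : (Subgroup.zpowers a).Normal)
    (hxA : x ∉ Subgroup.zpowers a) (hx2 : x ^ 2 ∈ Subgroup.zpowers a)
    (hxc : ∀ g : P, ⁅x, g⁆ ∈ Subgroup.zpowers a)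
    (hxa : x * a * x⁻¹ = a * a ^ (2 ^ (m - 1))) :
    ∃ K : Subgroup P, K.Normal ∧ IsMulCommutative K ∧ ¬ IsCyclic K := by
  have : Fact (Nat.Prime 2) := ⟨Nat.prime_two⟩
  obtain ⟨n, hn⟩ : ∃ n, n = 2 ^ (m - 1) := ⟨_, rfl⟩
  have h2n : 2 * n = 2 ^ m := by
    rw [hn, ← pow_succ']; congr 1; omega
  have h4n : 4 ∣ n := by
    rw [hn, show (4 : ℕ) = 2 ^ 2 from rfl]; exact pow_dvd_pow 2 (by omega)
  have hn0 : 0 < n := by rw [hn]; positivity
  obtain ⟨z, hz⟩ : ∃ z, z = a ^ n := ⟨_, rfl⟩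
  rw [← hn, ← hz] at hxa
  have hz2 : z ^ 2 = 1 := by
    rw [hz, ← pow_mul, mul_comm, h2n, ← ha]; exact pow_orderOf_eq_one a
  have hz1 : z ≠ 1 := by
    intro h
    rw [hz] at h
    have h1 := orderOf_dvd_of_pow_eq_one h
    rw [ha, ← h2n] at h1
    have := Nat.le_of_dvd hn0 h1
    omega
  have hzo : orderOf z = 2 := orderOf_eq_prime hz2 hz1
  have haz : Commute a z := by rw [hz]; exact (Commute.refl a).pow_right n
  have hzc : z ∈ Subgroup.center P := by
    rw [Subgroup.mem_center_iff]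
    intro g
    obtain ⟨k, hk⟩ := Subgroup.mem_zpowers_iff.mp (hAn.conj_mem a (Subgroup.mem_zpowers a) g)
    have h1 : g * z * g⁻¹ = z ^ k := by
      rw [hz, ← conj_pow, ← hk, ← zpow_natCast, ← zpow_mul, mul_comm, zpow_mul, zpow_natCast]
    rcases Int.even_or_odd k with he | ho
    · exfalso
      rw [zpow_even_eq_one hz2 he] at h1
      apply hz1
      have : z = g⁻¹ * (g * z * g⁻¹) * g := by group
      rw [this, h1]; group
    · rw [zpow_odd_eq_self hz2 ho] at h1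
      calc g * z = (g * z * g⁻¹) * g := by group
        _ = z * g := by rw [h1]
  obtain ⟨H, hHn, hAH, hxH, hHcard, hHm⟩ := exists_step 2 (Subgroup.zpowers a) x hxA hx2 hxc
  have haH : a ∈ H := hAH (Subgroup.mem_zpowers a)
  have hHm' : ∀ y ∈ H, ∃ j i : ℤ, y = x ^ j * a ^ i := by
    intro y hy
    obtain ⟨j, b, hb, rfl⟩ := hHm y hy
    obtain ⟨i, rfl⟩ := Subgroup.mem_zpowers_iff.mp hb
    exact ⟨j, i, rfl⟩
  have hZ₀n : (Subgroup.zpowers z).Normal := by
    refine ⟨fun y hy g => ?_⟩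
    have hyc : y ∈ Subgroup.center P := (Subgroup.zpowers_le.mpr hzc) hy
    rw [Subgroup.mem_center_iff.mp hyc g, mul_inv_cancel_right]
    exact hy
  have hcomm : ∀ u ∈ H, ∀ v ∈ H, ⁅u, v⁆ ∈ Subgroup.zpowers z := by
    intro u hu v hv
    obtain ⟨j, i, rfl⟩ := hHm' u hu
    obtain ⟨j', i', rfl⟩ := hHm' v hv
    have hπz : (QuotientGroup.mk' (Subgroup.zpowers z)) z = 1 :=
      (QuotientGroup.eq_one_iff z).mpr (Subgroup.mem_zpowers z)
    have hc : Commute ((QuotientGroup.mk' (Subgroup.zpowers z)) x) ((QuotientGroup.mk' (Subgroup.zpowers z)) a) := by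
      have h1 : x * a = a * z * x := by rw [← hxa]; group
      show _ * _ = _ * _
      rw [← map_mul, h1, map_mul, map_mul, hπz, mul_one]
    have h2 : Commute ((QuotientGroup.mk' (Subgroup.zpowers z)) (x ^ j * a ^ i))
        ((QuotientGroup.mk' (Subgroup.zpowers z)) (x ^ j' * a ^ i')) := by
      simp only [map_mul, map_zpow]
      apply Commute.mul_left
      · exact Commute.mul_right ((Commute.refl _).zpow_zpow j j') (hc.zpow_zpow j i')
      · exact Commute.mul_right (hc.symm.zpow_zpow i j') ((Commute.refl _).zpow_zpow i i')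
    rw [← QuotientGroup.eq_one_iff]
    show (QuotientGroup.mk' (Subgroup.zpowers z)) _ = 1
    rw [map_commutatorElement]
    exact commutatorElement_eq_one_iff_commute.mpr h2
  have hcc : ∀ u ∈ H, ∀ v ∈ H, ⁅u, v⁆ ∈ Subgroup.center P ∧ ⁅u, v⁆ ^ 2 = 1 := by
    intro u hu v hv
    obtain ⟨k, hk⟩ := Subgroup.mem_zpowers_iff.mp (hcomm u hu v hv)
    rw [← hk]
    exact ⟨Subgroup.zpow_mem _ hzc k, sq_zpow_eq_one hz2 k⟩
  have hpow : ∀ u ∈ H, ∀ v ∈ H, (u * v) ^ n = u ^ n * v ^ n := by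
    intro u hu v hv
    obtain ⟨h1, h2⟩ := hcc v hv u hu
    rw [mul_pow_class2 u v h1 n]
    obtain ⟨r, hr⟩ := even_choose_two_of_four_dvd h4n
    rw [hr, ← two_mul, pow_mul, h2, one_pow, mul_one]
  let K : Subgroup P :=
    { carrier := {u | u ∈ H ∧ u ^ n = 1}
      mul_mem' := fun {u v} hu hv => ⟨H.mul_mem hu.1 hv.1, by rw [hpow u hu.1 v hv.1, hu.2, hv.2, one_mul]⟩
      one_mem' := ⟨H.one_mem, one_pow n⟩
      inv_mem' := fun {u} hu => ⟨H.inv_mem hu.1, by rw [inv_pow, hu.2, inv_one]⟩ }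
  have hKmem : ∀ u, u ∈ K ↔ u ∈ H ∧ u ^ n = 1 := fun u => Iff.rfl
  have hKn : K.Normal := ⟨fun u hu g => ⟨hHn.conj_mem u hu.1 g, by rw [conj_pow, hu.2]; group⟩⟩
  have hxa2 : Commute x (a ^ 2) := by
    have h1 : x * a ^ 2 * x⁻¹ = a ^ 2 := by
      rw [← conj_pow, hxa, haz.mul_pow, hz2, mul_one]
    show x * a ^ 2 = a ^ 2 * x
    calc x * a ^ 2 = (x * a ^ 2 * x⁻¹) * x := by group
      _ = a ^ 2 * x := by rw [h1]
  have hKA : ∀ b ∈ K, b ∈ Subgroup.zpowers a → ∀ v ∈ H, b * v = v * b := by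
    intro b hbK hbA v hv
    obtain ⟨i, rfl⟩ := Subgroup.mem_zpowers_iff.mp hbA
    have h1 : (a ^ i) ^ n = 1 := hbK.2
    rw [← zpow_natCast, ← zpow_mul] at h1
    have h2 := orderOf_dvd_iff_zpow_eq_one.mpr h1
    rw [ha, ← h2n] at h2
    push_cast at h2
    have h3 : (2 : ℤ) ∣ i := Int.dvd_of_mul_dvd_mul_right (by exact_mod_cast hn0.ne') h2
    obtain ⟨i', rfl⟩ := h3
    obtain ⟨j, l, rfl⟩ := hHm' v hv
    have c1 : Commute (a ^ (2 * i')) x := by
      rw [zpow_mul, zpow_ofNat]; exact hxa2.symm.zpow_left i'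
    have c2 : Commute (a ^ (2 * i')) a := (Commute.refl a).zpow_left _
    exact (c1.zpow_right j).mul_right (c2.zpow_right l)
  have hxeven : ∀ j : ℤ, Even j → x ^ j ∈ Subgroup.zpowers a := by
    rintro j ⟨r, rfl⟩
    rw [← two_mul, zpow_mul, zpow_ofNat]
    exact Subgroup.zpow_mem _ hx2 r
  have hpar : ∀ u ∈ H, ∀ v ∈ H, u ∉ Subgroup.zpowers a → v ∉ Subgroup.zpowers a →
      u⁻¹ * v ∈ Subgroup.zpowers a := by
    intro u hu v hv huA hvA
    obtain ⟨j, i, rfl⟩ := hHm' u hu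
    obtain ⟨j', i', rfl⟩ := hHm' v hv
    have hj : Odd j := by
      rcases Int.even_or_odd j with he | ho
      · exact absurd (Subgroup.mul_mem _ (hxeven j he) (Subgroup.zpow_mem _ (Subgroup.mem_zpowers a) i)) huA
      · exact ho
    have hj' : Odd j' := by
      rcases Int.even_or_odd j' with he | ho
      · exact absurd (Subgroup.mul_mem _ (hxeven j' he) (Subgroup.zpow_mem _ (Subgroup.mem_zpowers a) i')) hvA
      · exact ho
    have h1 : (x ^ j * a ^ i)⁻¹ * (x ^ j' * a ^ i') = (a ^ i)⁻¹ * x ^ (j' - j) * a ^ i' := by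
      rw [zpow_sub]; group
    rw [h1]
    exact Subgroup.mul_mem _ (Subgroup.mul_mem _ (Subgroup.inv_mem _ (Subgroup.zpow_mem _ (Subgroup.mem_zpowers a) i))
      (hxeven _ (hj'.sub_odd hj))) (Subgroup.zpow_mem _ (Subgroup.mem_zpowers a) i')
  have hKc : IsMulCommutative K := by
    refine ⟨⟨fun ⟨u, hu⟩ ⟨v, hv⟩ => Subtype.ext ?_⟩⟩
    show u * v = v * u
    by_cases huA : u ∈ Subgroup.zpowers a
    · exact hKA u hu huA v hv.1
    by_cases hvA : v ∈ Subgroup.zpowers a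
    · exact (hKA v hv hvA u hu.1).symm
    have hwA := hpar u hu.1 v hv.1 huA hvA
    have hwK : u⁻¹ * v ∈ K := K.mul_mem (K.inv_mem hu) hv
    have hw := hKA _ hwK hwA u hu.1
    calc u * v = u * (u * (u⁻¹ * v)) := by group
      _ = u * ((u⁻¹ * v) * u) := by rw [hw]
      _ = v * u := by group
  have hex : ∃ u ∈ K, u ∉ Subgroup.zpowers a := by
    obtain ⟨l, hl⟩ := Subgroup.mem_zpowers_iff.mp hx2
    have h1 : x * a ^ l * x⁻¹ = a ^ l := by rw [hl]; group
    have h2 : x * a ^ l * x⁻¹ = a ^ l * z ^ l := by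
      rw [← conj_zpow, hxa, haz.mul_zpow]
    have h3 : z ^ l = 1 := by
      rw [h1] at h2
      exact (mul_eq_left.mp h2.symm)
    have h4 : (2 : ℤ) ∣ l := by
      have := orderOf_dvd_iff_zpow_eq_one.mpr h3
      rwa [hzo] at this
    obtain ⟨l', rfl⟩ := h4
    obtain ⟨n', hn'⟩ : ∃ n', n = 2 * n' := (Dvd.dvd.trans (by norm_num) h4n)
    have h5 : x ^ n = z ^ l' := by
      rw [hn', pow_mul, ← hl, hz, ← zpow_natCast, ← zpow_natCast a n, ← zpow_mul, ← zpow_mul]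
      congr 1
      rw [hn']; push_cast; ring
    rcases Int.even_or_odd l' with he | ho
    · exact ⟨x, ⟨hxH, by rw [h5, zpow_even_eq_one hz2 he]⟩, hxA⟩
    · refine ⟨x * a, ⟨H.mul_mem hxH haH, ?_⟩, ?_⟩
      · rw [hpow x hxH a haH, h5, zpow_odd_eq_self hz2 ho, ← hz, ← pow_two, hz2]
      · intro h
        exact hxA ((Subgroup.mul_mem_cancel_right _ (Subgroup.mem_zpowers a)).mp h)
  refine ⟨K, hKn, hKc, ?_⟩
  intro hcyc
  have hle : Nat.card K ≤ n := by
    obtain ⟨g, hg⟩ := hcyc.exists_generator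
    rw [← orderOf_eq_card_of_forall_mem_zpowers hg]
    exact Nat.le_of_dvd hn0 (orderOf_dvd_of_pow_eq_one (Subtype.ext g.2.2))
  have ha2K : Subgroup.zpowers (a ^ 2) ≤ K := by
    rw [Subgroup.zpowers_le]
    exact ⟨H.pow_mem haH 2, by rw [← pow_mul, h2n, ← ha]; exact pow_orderOf_eq_one a⟩
  have hcard2 : Nat.card (Subgroup.zpowers (a ^ 2)) = n := by
    rw [Nat.card_zpowers, orderOf_pow_of_dvd (by norm_num) (by rw [ha]; exact dvd_pow_self 2 (by omega)), ha, ← h2n]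
    simp
  have heq := Subgroup.eq_of_le_of_card_ge ha2K (by rw [hcard2]; exact hle)
  obtain ⟨u, huK, huA⟩ := hex
  apply huA
  rw [← heq] at huK
  exact (Subgroup.zpowers_le.mpr (Subgroup.pow_mem _ (Subgroup.mem_zpowers a) 2)) huK

/-- arithmetic: `2^m ∣ k²-1`, `4 ∣ k-1` imply `2^(m-1) ∣ k-1`. -/
theorem two_pow_dvd_sub_one (m : ℕ) (hm : 1 ≤ m) (k : ℤ) (h1 : (2 : ℤ) ^ m ∣ k * k - 1) (h2 : (4 : ℤ) ∣ k - 1) :
    (2 : ℤ) ^ (m - 1) ∣ k - 1 := by
  obtain ⟨s, hs⟩ := h2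
  have h3 : k * k - 1 = 2 * ((k - 1) * (2 * s + 1)) := by
    have : k = 4 * s + 1 := by linarith
    rw [this]; ring
  rw [h3, show m = (m - 1) + 1 by omega, pow_succ'] at h1
  have h4 : (2 : ℤ) ^ (m - 1) ∣ (k - 1) * (2 * s + 1) := Int.dvd_of_mul_dvd_mul_left (by norm_num) h1
  have hco : IsCoprime ((2 : ℤ) ^ (m - 1)) (2 * s + 1) := IsCoprime.pow_left ⟨-s, 1, by ring⟩
  exact hco.dvd_of_dvd_mul_right h4

/-- arithmetic: `2^m ∣ i (k-1)`, `4 ∣ k+1` imply `2^(m-1) ∣ i`. -/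
theorem two_pow_dvd_of_neg (m : ℕ) (hm : 1 ≤ m) (k i : ℤ) (h1 : (2 : ℤ) ^ m ∣ i * (k - 1)) (h2 : (4 : ℤ) ∣ k + 1) :
    (2 : ℤ) ^ (m - 1) ∣ i := by
  obtain ⟨s, hs⟩ := h2
  have h3 : i * (k - 1) = 2 * (i * (2 * s - 1)) := by
    have : k = 4 * s - 1 := by linarith
    rw [this]; ring
  rw [h3, show m = (m - 1) + 1 by omega, pow_succ'] at h1
  have h4 : (2 : ℤ) ^ (m - 1) ∣ i * (2 * s - 1) := Int.dvd_of_mul_dvd_mul_left (by norm_num) h1
  have hco : IsCoprime ((2 : ℤ) ^ (m - 1)) (2 * s - 1) := IsCoprime.pow_left ⟨s, -1, by ring⟩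
  exact hco.dvd_of_dvd_mul_right h4

/-- A noncyclic 2-group all of whose abelian normal subgroups are cyclic has a cyclic subgroup `⟨a⟩` of
index two, `|a| = 2^m ≥ 4`, and every element outside inverts the element of order four of `⟨a⟩`. -/
theorem normal_cyclic_structure {P : Type*} [Group P] [Finite P] (hP : IsPGroup 2 P)
    (hn : ∀ A : Subgroup P, A.Normal → IsMulCommutative A → IsCyclic A) (hnc : ¬ IsCyclic P) :
    ∃ (m : ℕ) (a : P), 2 ≤ m ∧ orderOf a = 2 ^ m ∧ (Subgroup.zpowers a).index = 2 ∧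
      ∀ x : P, x ∉ Subgroup.zpowers a → x * a ^ (2 ^ (m - 2)) * x⁻¹ = (a ^ (2 ^ (m - 2)))⁻¹ := by
  have : Fact (Nat.Prime 2) := ⟨Nat.prime_two⟩
  obtain ⟨A, -, hAn, hAc, hCA⟩ := Cfsg.Agent.S1452.exists_scn_ge 2 hP ⊥ inferInstance inferInstance
  obtain ⟨⟨a, haA⟩, hgen⟩ := (hn A hAn hAc).exists_generator
  have hAeq : A = Subgroup.zpowers a := by
    apply le_antisymm
    · intro y hy
      obtain ⟨k, hk⟩ := Subgroup.mem_zpowers_iff.mp (hgen ⟨y, hy⟩)
      exact Subgroup.mem_zpowers_iff.mpr ⟨k, by simpa using congrArg Subtype.val hk⟩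
    · exact Subgroup.zpowers_le.mpr haA
  subst hAeq
  have hcent : ∀ g : P, Commute g a → g ∈ Subgroup.zpowers a := by
    intro g hg
    rw [← hCA, Subgroup.mem_centralizer_iff]
    intro y hy
    obtain ⟨k, rfl⟩ := Subgroup.mem_zpowers_iff.mp hy
    exact (hg.zpow_right k).symm
  have hne : ∃ x₀ : P, x₀ ∉ Subgroup.zpowers a := by
    by_contra hcon
    push Not at hcon
    exact hnc ⟨a, hcon⟩
  obtain ⟨x₀, hx₀⟩ := hne
  obtain ⟨m, hm⟩ := (IsPGroup.iff_orderOf.mp hP) a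
  have hconj : ∀ g : P, ∃ k : ℤ, g * a * g⁻¹ = a ^ k := fun g => by
    obtain ⟨k, hk⟩ := Subgroup.mem_zpowers_iff.mp (hAn.conj_mem a (Subgroup.mem_zpowers a) g)
    exact ⟨k, hk.symm⟩
  have hcomm_of : ∀ g : P, g * a * g⁻¹ = a → Commute g a := by
    intro g h
    show g * a = a * g
    calc g * a = (g * a * g⁻¹) * g := by group
      _ = a * g := by rw [h]
  have hm2 : 2 ≤ m := by
    by_contra hcon
    have ha2 : a ^ 2 = 1 := by
      have h1 : orderOf a ∣ 2 := by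
        rw [hm]; exact (pow_dvd_pow 2 (show m ≤ 1 by omega)).trans (by norm_num)
      exact orderOf_dvd_iff_pow_eq_one.mp h1
    apply hx₀
    apply hcent
    apply hcomm_of
    obtain ⟨k, hk⟩ := hconj x₀
    rcases Int.even_or_odd k with he | ho
    · rw [zpow_even_eq_one ha2 he] at hk
      have : a = 1 := by
        have h2 : a = x₀⁻¹ * (x₀ * a * x₀⁻¹) * x₀ := by group
        rw [h2, hk]; group
      rw [this]; group
    · rw [hk, zpow_odd_eq_self ha2 ho]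
  obtain ⟨a₀, ha₀⟩ : ∃ a₀, a₀ = a ^ (2 ^ (m - 2)) := ⟨_, rfl⟩
  have ho₀ : orderOf a₀ = 4 := by
    rw [ha₀, orderOf_pow_of_dvd (by positivity) (by rw [hm]; exact pow_dvd_pow 2 (by omega)), hm,
      Nat.pow_div (by omega) (by norm_num)]
    rw [show m - (m - 2) = 2 by omega]
  have h4 : a₀ ^ 4 = 1 := by rw [← ho₀]; exact pow_orderOf_eq_one a₀
  have h2ne : a₀ ^ 2 ≠ 1 := by
    intro h
    have := orderOf_dvd_of_pow_eq_one h
    rw [ho₀] at this
    omega
  have hconj₀ : ∀ (g : P) (k : ℤ), g * a * g⁻¹ = a ^ k → g * a₀ * g⁻¹ = a₀ ^ k := by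
    intro g k hk
    rw [ha₀, ← conj_pow, hk, ← zpow_natCast, ← zpow_mul, mul_comm, zpow_mul, zpow_natCast]
  -- every element centralizes or inverts a₀
  have hor : ∀ g : P, g * a₀ * g⁻¹ = a₀ ∨ g * a₀ * g⁻¹ = a₀⁻¹ := by
    intro g
    obtain ⟨k, hk⟩ := hconj g
    have h1 := hconj₀ g k hk
    have hk4 : a₀ ^ k = a₀ ^ (k % 4) := by
      conv_lhs => rw [← Int.emod_add_mul_ediv k 4]
      rw [zpow_add, zpow_mul, show (4 : ℤ) = ((4 : ℕ) : ℤ) from rfl, zpow_natCast, h4, one_zpow, mul_one]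
    have hr : k % 4 = 0 ∨ k % 4 = 1 ∨ k % 4 = 2 ∨ k % 4 = 3 := by omega
    rcases hr with hr | hr | hr | hr
    · exfalso
      rw [hk4, hr, zpow_zero] at h1
      have : a₀ = 1 := by
        have h2 : a₀ = g⁻¹ * (g * a₀ * g⁻¹) * g := by group
        rw [h2, h1]; group
      exact h2ne (by rw [this, one_pow])
    · left; rw [h1, hk4, hr, zpow_one]
    · exfalso
      rw [hk4, hr] at h1
      have h3 : g * a₀ ^ 2 * g⁻¹ = 1 := by
        rw [← conj_pow, h1, ← zpow_natCast, ← zpow_mul]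
        show a₀ ^ ((4 : ℕ) : ℤ) = 1
        rw [zpow_natCast, h4]
      apply h2ne
      have h2 : a₀ ^ 2 = g⁻¹ * (g * a₀ ^ 2 * g⁻¹) * g := by group
      rw [h2, h3]; group
    · right
      rw [h1, hk4, hr, eq_inv_iff_mul_eq_one]
      show a₀ ^ ((3 : ℕ) : ℤ) * a₀ = 1
      rw [zpow_natCast, ← pow_succ, h4]
  have hA₀n : (Subgroup.zpowers a₀).Normal := by
    refine ⟨fun y hy g => ?_⟩
    obtain ⟨k, rfl⟩ := Subgroup.mem_zpowers_iff.mp hy
    rw [← conj_zpow]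
    rcases hor g with h | h <;> rw [h]
    · exact Subgroup.zpow_mem _ (Subgroup.mem_zpowers a₀) k
    · exact Subgroup.zpow_mem _ (Subgroup.inv_mem _ (Subgroup.mem_zpowers a₀)) k
  -- the centralizer of a₀ is A
  have hT : Subgroup.centralizer (Subgroup.zpowers a₀ : Set P) ≤ Subgroup.zpowers a := by
    by_contra hTA
    obtain ⟨x, hxT, hxA, hx2, hxc⟩ := exists_rel_central_order_p 2 hP (Subgroup.zpowers a)
      (Subgroup.centralizer (Subgroup.zpowers a₀ : Set P)) hTA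
    have hxa₀ : x * a₀ * x⁻¹ = a₀ := by
      have := Subgroup.mem_centralizer_iff.mp hxT a₀ (Subgroup.mem_zpowers a₀)
      rw [← this]; group
    obtain ⟨k, hk⟩ := hconj x
    have hk0 := hconj₀ x k hk
    rw [hxa₀] at hk0
    have h4k : (4 : ℤ) ∣ k - 1 := by
      have h1 : a₀ ^ (k - 1) = 1 := by rw [zpow_sub, zpow_one, ← hk0, mul_inv_cancel]
      have := orderOf_dvd_iff_zpow_eq_one.mpr h1
      rwa [ho₀] at this
    have hkk : (2 : ℤ) ^ m ∣ k * k - 1 := by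
      have h1 : x ^ 2 * a * (x ^ 2)⁻¹ = a := by
        obtain ⟨l, hl⟩ := Subgroup.mem_zpowers_iff.mp hx2
        rw [← hl]
        have : Commute (a ^ l) a := (Commute.refl a).zpow_left l
        rw [this.eq]; group
      have h2 : x ^ 2 * a * (x ^ 2)⁻¹ = a ^ (k * k) := by
        have : x ^ 2 * a * (x ^ 2)⁻¹ = x * (x * a * x⁻¹) * x⁻¹ := by rw [pow_two]; group
        rw [this, hk, ← conj_zpow, hk, ← zpow_mul]
      have h3 : a ^ (k * k - 1) = 1 := by rw [zpow_sub, zpow_one, ← h2, h1, mul_inv_cancel]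
      have := orderOf_dvd_iff_zpow_eq_one.mpr h3
      rw [hm] at this
      exact_mod_cast this
    obtain ⟨t, ht⟩ := two_pow_dvd_sub_one m (by omega) k hkk h4k
    have hz2 : (a ^ (2 ^ (m - 1))) ^ 2 = 1 := by
      rw [← pow_mul, ← pow_succ, show m - 1 + 1 = m by omega, ← hm]; exact pow_orderOf_eq_one a
    have hk' : a ^ k = a * (a ^ (2 ^ (m - 1))) ^ t := by
      have : k = 1 + 2 ^ (m - 1) * t := by linarith
      rw [this, zpow_add, zpow_one, zpow_mul]
      congr 2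
      exact_mod_cast zpow_natCast a (2 ^ (m - 1))
    rcases Int.even_or_odd t with he | ho
    · rw [zpow_even_eq_one hz2 he, mul_one] at hk'
      exact hxA (hcent x (hcomm_of x (hk.trans hk')))
    · rw [zpow_odd_eq_self hz2 ho] at hk'
      have hm3 : 3 ≤ m := by
        by_contra hcon
        have hm' : m = 2 := by omega
        apply hxA
        apply hcent x
        apply hcomm_of
        rw [ha₀, hm'] at hxa₀
        simpa using hxa₀
      obtain ⟨K, hKn, hKc, hKnc⟩ := modular_kill m hm3 a x hm hAn hxA hx2 hxc (hk.trans hk')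
      exact hKnc (hn K hKn hKc)
  have hinv : ∀ x : P, x ∉ Subgroup.zpowers a → x * a₀ * x⁻¹ = a₀⁻¹ := by
    intro x hx
    rcases hor x with h | h
    · exfalso
      apply hx
      apply hT
      rw [Subgroup.mem_centralizer_iff]
      intro y hy
      obtain ⟨k, rfl⟩ := Subgroup.mem_zpowers_iff.mp hy
      have : Commute x a₀ := by
        show x * a₀ = a₀ * x
        calc x * a₀ = (x * a₀ * x⁻¹) * x := by group
          _ = a₀ * x := by rw [h]
      exact (this.zpow_right k).symm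
    · exact h
  refine ⟨m, a, hm2, hm, ?_, by rw [← ha₀]; exact hinv⟩
  rw [Subgroup.index_eq_two_iff]
  refine ⟨x₀, fun b => ?_⟩
  by_cases hb : b ∈ Subgroup.zpowers a
  · refine Or.inr ⟨hb, fun h => hx₀ ((Subgroup.mul_mem_cancel_left _ hb).mp h)⟩
  · refine Or.inl ⟨?_, hb⟩
    apply hT
    rw [Subgroup.mem_centralizer_iff]
    intro y hy
    obtain ⟨k, rfl⟩ := Subgroup.mem_zpowers_iff.mp hy
    have h1 : (b * x₀) * a₀ * (b * x₀)⁻¹ = a₀ := by
      have : (b * x₀) * a₀ * (b * x₀)⁻¹ = b * (x₀ * a₀ * x₀⁻¹) * b⁻¹ := by group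
      rw [this, hinv x₀ hx₀]
      have h2 : b * a₀⁻¹ * b⁻¹ = (b * a₀ * b⁻¹)⁻¹ := by group
      rw [h2, hinv b hb, inv_inv]
    have : Commute (b * x₀) a₀ := by
      show (b * x₀) * a₀ = a₀ * (b * x₀)
      calc (b * x₀) * a₀ = ((b * x₀) * a₀ * (b * x₀)⁻¹) * (b * x₀) := by group
        _ = a₀ * (b * x₀) := by rw [h1]
    exact (this.zpow_right k).symm

/-- In the situation of `normal_cyclic_structure` central elements square to one. -/
theorem center_sq_of_structure {P : Type*} [Group P] (m : ℕ) (a : P) (hm2 : 2 ≤ m)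
    (ha : orderOf a = 2 ^ m) (hidx : (Subgroup.zpowers a).index = 2)
    (hinv : ∀ x : P, x ∉ Subgroup.zpowers a → x * a ^ (2 ^ (m - 2)) * x⁻¹ = (a ^ (2 ^ (m - 2)))⁻¹)
    (c : P) (hc : c ∈ Subgroup.center P) : c ^ 2 = 1 := by
  have hAn : (Subgroup.zpowers a).Normal := Subgroup.normal_of_index_eq_two hidx
  obtain ⟨a₀, ha₀⟩ : ∃ a₀, a₀ = a ^ (2 ^ (m - 2)) := ⟨_, rfl⟩
  rw [← ha₀] at hinv
  have ho₀ : orderOf a₀ = 4 := by
    rw [ha₀, orderOf_pow_of_dvd (by positivity) (by rw [ha]; exact pow_dvd_pow 2 (by omega)), ha,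
      Nat.pow_div (by omega) (by norm_num)]
    rw [show m - (m - 2) = 2 by omega]
  have h2ne : a₀ ^ 2 ≠ 1 := by
    intro h
    have := orderOf_dvd_of_pow_eq_one h
    rw [ho₀] at this
    omega
  have hcA : c ∈ Subgroup.zpowers a := by
    by_contra hcon
    have h1 := hinv c hcon
    rw [← Subgroup.mem_center_iff.mp hc a₀, mul_inv_cancel_right] at h1
    apply h2ne
    rw [pow_two]
    nth_rewrite 1 [h1]
    exact inv_mul_cancel a₀
  obtain ⟨x, hx⟩ : ∃ x, x ∉ Subgroup.zpowers a := by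
    by_contra hcon
    push Not at hcon
    have : Subgroup.zpowers a = ⊤ := eq_top_iff.mpr (fun y _ => hcon y)
    rw [this, Subgroup.index_top] at hidx
    omega
  obtain ⟨k, hk⟩ := Subgroup.mem_zpowers_iff.mp (hAn.conj_mem a (Subgroup.mem_zpowers a) x)
  obtain ⟨i, rfl⟩ := Subgroup.mem_zpowers_iff.mp hcA
  have hk0 : x * a₀ * x⁻¹ = a₀ ^ k := by
    rw [ha₀, ← conj_pow, ← hk, ← zpow_natCast, ← zpow_mul, mul_comm, zpow_mul, zpow_natCast]
  have h4k : (4 : ℤ) ∣ k + 1 := by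
    have h1 : a₀ ^ (k + 1) = 1 := by rw [zpow_add, zpow_one, ← hk0, hinv x hx, inv_mul_cancel]
    have := orderOf_dvd_iff_zpow_eq_one.mpr h1
    rwa [ho₀] at this
  have hik : (2 : ℤ) ^ m ∣ i * (k - 1) := by
    have h1 : x * a ^ i * x⁻¹ = a ^ i := by
      rw [Subgroup.mem_center_iff.mp hc x, mul_inv_cancel_right]
    have h2 : x * a ^ i * x⁻¹ = a ^ (k * i) := by rw [← conj_zpow, ← hk, ← zpow_mul]
    have h3 : a ^ (i * (k - 1)) = 1 := by
      rw [show i * (k - 1) = k * i - i by ring, zpow_sub, ← h2, h1, mul_inv_cancel]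
    have := orderOf_dvd_iff_zpow_eq_one.mpr h3
    rw [ha] at this
    exact_mod_cast this
  obtain ⟨t, rfl⟩ := two_pow_dvd_of_neg m (by omega) k i hik h4k
  rw [← zpow_natCast, ← zpow_mul]
  apply orderOf_dvd_iff_zpow_eq_one.mp
  rw [ha]
  refine ⟨t, ?_⟩
  have : (2 : ℤ) ^ m = 2 ^ (m - 1) * 2 := by rw [← pow_succ]; congr 1; omega
  push_cast
  rw [this]; ring

/-- A group with a cyclic subgroup of index two has 2-rank at most two. -/
theorem card_le_four_of_cyclic_index_two {P : Type*} [Group P] [Finite P] (C : Subgroup P)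
    (hC : IsCyclic C) (hi : C.index = 2) (E : Subgroup P) (hE : ∀ e ∈ E, e ^ 2 = 1) :
    Nat.card E ≤ 4 := by
  have hCn : C.Normal := Subgroup.normal_of_index_eq_two hi
  have h1 := Subgroup.relIndex_mul_relIndex ⊥ (E ⊓ C) E bot_le inf_le_left
  rw [Subgroup.relIndex_bot_left, Subgroup.relIndex_bot_left, Subgroup.inf_relIndex_left] at h1
  have h2 : C.relIndex E ≤ 2 := by
    have := Subgroup.relIndex_dvd_index_of_normal C E
    rw [hi] at this
    exact Nat.le_of_dvd (by norm_num) this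
  have h3 : Nat.card (E ⊓ C : Subgroup P) ≤ 2 := by
    have hcyc : IsCyclic (E ⊓ C : Subgroup P) := Subgroup.isCyclic_of_le (inf_le_right : E ⊓ C ≤ C)
    obtain ⟨g, hg⟩ := hcyc.exists_generator
    rw [← orderOf_eq_card_of_forall_mem_zpowers hg]
    exact Nat.le_of_dvd (by norm_num) (orderOf_dvd_of_pow_eq_one (Subtype.ext (hE g g.2.1)))
  rw [← h1]
  calc Nat.card (E ⊓ C : Subgroup P) * C.relIndex E ≤ 2 * 2 := Nat.mul_le_mul h3 h2
    _ = 4 := by norm_num

end Cfsg.Agent.Lib.Helper14
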