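import Mathlib

set_option autoImplicit false

namespace Cfsg.Agent.Lib.Helper14

/-- If an abelian Sylow `p`-subgroup (`p` odd) contains a nontrivial element conjugate in `G`
to its inverse, then `|N(P) : C(P)|` is even. -/
theorem two_dvd_index_of_conj_inv {G : Type*} [Group G] [Finite G] {p : ℕ} [Fact p.Prime]
    (hp : p ≠ 2) (P : Sylow p G) (hP : IsMulCommutative (P : Subgroup G))
    (x : G) (hx : x ∈ P) (hx1 : x ≠ 1) (hconj : IsConj x x⁻¹) :
    2 ∣ ((Subgroup.centralizer ((P : Subgroup G) : Set G)).subgroupOf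
      (Subgroup.normalizer ((P : Subgroup G) : Set G))).index := by
  have := hP
  have hpp : p.Prime := Fact.out
  obtain ⟨c, hc⟩ := isConj_iff.mp hconj
  have hy : (c⁻¹)⁻¹ * x * c⁻¹ ∈ P := by
    rw [inv_inv, hc]; exact (P : Subgroup G).inv_mem hx
  obtain ⟨n, hn, hnx⟩ := P.conj_eq_normalizer_conj_of_mem x c⁻¹ hx hy
  rw [inv_inv, hc] at hnx
  -- hnx : x⁻¹ = n⁻¹ * x * n
  set NP := Subgroup.normalizer ((P : Subgroup G) : Set G) with hNP
  set K := (Subgroup.centralizer ((P : Subgroup G) : Set G)).subgroupOf NP with hK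
  have hKn : K.Normal := Subgroup.normal_subgroupOf_centralizer_normalizer _
  let nb : NP ⧸ K := QuotientGroup.mk (⟨n, hn⟩ : NP)
  have hdiv : orderOf nb ∣ K.index := by
    rw [Subgroup.index_eq_card]
    exact orderOf_dvd_natCard nb
  refine dvd_trans ?_ hdiv
  by_contra hodd
  have hodd' : Odd (orderOf nb) := by
    rcases Nat.even_or_odd (orderOf nb) with h | h
    · exact absurd h.two_dvd hodd
    · exact h
  obtain ⟨j, hj⟩ := hodd'
  have h1 : nb ^ (2 * j + 1) = 1 := by rw [← hj]; exact pow_orderOf_eq_one nb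
  have h2 : (⟨n, hn⟩ : NP) ^ (2 * j + 1) ∈ K := by
    rw [← QuotientGroup.eq_one_iff]
    exact h1
  have h3 : n ^ (2 * j + 1) ∈ Subgroup.centralizer ((P : Subgroup G) : Set G) := by
    have := Subgroup.mem_subgroupOf.mp h2
    simpa using this
  have h4 : x * n ^ (2 * j + 1) = n ^ (2 * j + 1) * x := Subgroup.mem_centralizer_iff.mp h3 x hx
  have hxn : x * n = n * x⁻¹ := by rw [hnx]; group
  have hxin : x⁻¹ * n = n * x := by
    have : x⁻¹ * n = x⁻¹ * (n * x⁻¹) * x := by group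
    rw [this, ← hxn]; group
  have hn2 : Commute x (n ^ 2) := by
    change x * n ^ 2 = n ^ 2 * x
    rw [pow_two, ← mul_assoc, hxn, mul_assoc, hxin, mul_assoc]
  have h5 : Commute x (n ^ (2 * j)) := by
    rw [pow_mul]; exact hn2.pow_right j
  have h6 : x * n ^ (2 * j + 1) = n ^ (2 * j + 1) * x⁻¹ := by
    rw [pow_succ, ← mul_assoc, h5.eq, mul_assoc, hxn, mul_assoc]
  have h7 : x = x⁻¹ := by
    have := h4.symm.trans h6
    exact mul_left_cancel this
  have h8 : x ^ 2 = 1 := by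
    rw [pow_two]; nth_rewrite 2 [h7]; exact mul_inv_cancel x
  have h9 : orderOf x ∣ 2 := orderOf_dvd_of_pow_eq_one h8
  obtain ⟨k, hk⟩ := (IsPGroup.iff_orderOf.mp P.2 (⟨x, hx⟩ : (P : Subgroup G)))
  have hk' : orderOf x = p ^ k := by
    rw [← hk]; exact (Subgroup.orderOf_mk x hx).symm
  rw [hk'] at h9
  rcases Nat.eq_zero_or_pos k with hk0 | hk0
  · subst hk0
    rw [pow_zero, orderOf_eq_one_iff] at hk'
    exact hx1 hk'
  · have : p ∣ 2 := dvd_trans (dvd_pow_self p hk0.ne') h9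
    exact hp ((Nat.prime_dvd_prime_iff_eq hpp Nat.prime_two).mp this)

end Cfsg.Agent.Lib.Helper14
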